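import Cfsg.Agent.H921.U33.TypeTwoFin
import Cfsg.Agent.H827.U33.GAct0
import Cfsg.Agent.H827.U33.GAct1
import Cfsg.Agent.H827.U33.GAct2
import Cfsg.Agent.H827.U33.GAct3
import Cfsg.Agent.H827.U33.GRelAll
import Cfsg.Agent.H109.U33.FinG

/-!
# S5525, box II (helper921)

`boxII` : in the group, for every `p` of the normal form set `PP (g wy1) eG`, a triple `(u₀, y₀, c p c⁻¹)` has a nontrivial
centralizing element.
-/

set_option autoImplicit false

namespace Cfsg.Agent.H921.U33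

open Cfsg.Agent.H819.U33 Cfsg.Agent.H524.U33 Cfsg.Agent.H827.U33
open Cfsg.Agent.BabyM.Conc Cfsg.Agent.BabyM.TransInv Cfsg.Agent.BM.StageW
open Cfsg.Agent.H863.U33 (PP nf eG tb we wy1 of_chk)

theorem hactG (i : Fin 4) (j : Fin 8) :
    chk (we j ++ wa i) (wa i ++ Cfsg.Agent.H863.U33.nfw (AG i j) (CG i j)) = true := by
  fin_cases i
  · exact act0 j
  · exact act1 j
  · exact act2 j
  · exact act3 j

theorem hcuG (i : Fin 4) : g (wa i) * g wu1 = g wu1 * g (wa i) := by
  fin_cases i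
  · exact comm_of cu0
  · exact comm_of cu1
  · exact comm_of cu2
  · exact comm_of cu3

theorem hcyG (i : Fin 4) : g (wa i) * g wy1 = g wy1 * g (wa i) := by
  fin_cases i
  · exact comm_of cy0
  · exact comm_of cy1
  · exact comm_of cy2
  · exact comm_of cy3

theorem hnG (i : Fin 4) : g (wa i) ≠ 1 := by
  fin_cases i
  · exact g_ne_one n1_0
  · exact g_ne_one n1_1
  · exact g_ne_one n1_2
  · exact g_ne_one n1_3

theorem sq_of {w : List Ltr} (h : chk (w ++ w) [] = true) : g w * g w = 1 := by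
  have h1 := eq_of h
  rw [g_append, g_nil] at h1
  exact h1

theorem hsqG (i : Fin 4) (hi : i ≠ 3) : g (wa i) * g (wa i) = 1 := by
  fin_cases i
  · exact sq_of sq0
  · exact sq_of sq1
  · exact sq_of sq2
  · exact absurd rfl hi

/-- **Box II.** -/
theorem boxII : ∀ p ∈ PP (g wy1) eG, Trip (g wu) (g wy) (g wc * p * (g wc)⁻¹) →
    Cen (g wu) (g wy) (g wc * p * (g wc)⁻¹) :=
  boxII_of hactG hcuG hcyG hnG hsqG rel0 rel1 rel2 rel3 rel4 rel5 Cfsg.Agent.H109.U33.hfinG

end Cfsg.Agent.H921.U33
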