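import Cfsg.Agent.H863.U33.Dat
import Cfsg.Agent.H524.U33.Glue

/-!
# S5525, type II: the abstract core (helper921)

`P = ⟨y, e⟩ = 3^(1+8)` with the relations of `H863.U33.TB`; `a i` (`i < 4`) commute with `u` and `y` and act on `P` by the matrices
`A i` modulo `y`; `a 0, a 1, a 2` are involutions. Every vector of `P / ⟨y⟩` is moved by a word in the `a i` to a vector fixed by
one of the involutions or to one of the vectors `reps`; the elements over `reps` do not form a triple with `u`, `y`. Then the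
triples `Trip u y p`, `p ∈ P`, have a nontrivial centralizer.
-/

set_option autoImplicit false

namespace Cfsg.Agent.H921.U33

open Cfsg.Agent.H819.U33 Cfsg.Agent.H863.U33 Cfsg.Agent.H524.U33

/-- the action of a matrix on row vectors -/
def act (M : Fin 8 → Fin 8 → ZMod 3) (v : Fin 8 → ZMod 3) : Fin 8 → ZMod 3 := fun j => ∑ i, v i * M i j

/-- the action of a word, the first letter acts first -/
def acts (A : Fin 4 → Fin 8 → Fin 8 → ZMod 3) : (Fin 8 → ZMod 3) → List (Fin 4) → Fin 8 → ZMod 3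
  | v, [] => v
  | v, i :: l => acts A (act (A i) v) l

section hom

variable {Q : Type*} [Group Q]

/-- powers of an element of order dividing 3 -/
def pw3 (x : Q) (hx : x ^ 3 = 1) : Multiplicative (ZMod 3) →* Q :=
  AddMonoidHom.toMultiplicativeLeft (ZMod.lift 3 ⟨(zmultiplesHom (Additive Q)) (Additive.ofMul x), by
    show (3 : ℤ) • Additive.ofMul x = 0
    rw [← ofMul_zpow]
    have : x ^ (3 : ℤ) = 1 := by
      have := hx
      exact_mod_cast this
    rw [this]
    rfl⟩)

theorem pw3_apply (x : Q) (hx : x ^ 3 = 1) (a : ZMod 3) : pw3 x hx (Multiplicative.ofAdd a) = x ^ a.val := by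
  have h1 : a = ((a.val : ℤ) : ZMod 3) := by
    rw [Int.cast_natCast, ZMod.natCast_zmod_val]
  have h2 : pw3 x hx (Multiplicative.ofAdd ((a.val : ℤ) : ZMod 3)) = x ^ (a.val : ℤ) := by
    show Additive.toMul (ZMod.lift 3 _ (((a.val : ℤ) : ZMod 3))) = _
    rw [ZMod.lift_coe]
    rfl
  rw [h1, h2, ← h1, zpow_natCast]

variable (E : Fin 8 → Q) (hE : ∀ j, E j ^ 3 = 1) (hc : ∀ i j, E i * E j = E j * E i)

include hc in
theorem pw_comm : Pairwise fun i j => ∀ x y : Multiplicative (ZMod 3), Commute (pw3 (E i) (hE i) x) (pw3 (E j) (hE j) y) := by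
  intro i j _ x y
  have h1 : ∀ (k : Fin 8) (z : Multiplicative (ZMod 3)), pw3 (E k) (hE k) z = E k ^ (Multiplicative.toAdd z).val :=
    fun k z => pw3_apply (E k) (hE k) (Multiplicative.toAdd z)
  show Commute (pw3 (E i) (hE i) x) (pw3 (E j) (hE j) y)
  rw [h1, h1]
  exact Commute.pow_pow (hc i j) _ _

/-- the homomorphism with `single j 1 ↦ E j` -/
noncomputable def Phi : (Fin 8 → Multiplicative (ZMod 3)) →* Q :=
  MonoidHom.noncommPiCoprod (fun j => pw3 (E j) (hE j)) (pw_comm E hE hc)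

/-- a vector as an element of the multiplicative group -/
def mv (v : Fin 8 → ZMod 3) : Fin 8 → Multiplicative (ZMod 3) := fun j => Multiplicative.ofAdd (v j)

/-- the vector with one coordinate -/
def sng (j : Fin 8) (a : ZMod 3) : Fin 8 → Multiplicative (ZMod 3) :=
  Pi.mulSingle (M := fun _ : Fin 8 => Multiplicative (ZMod 3)) j (Multiplicative.ofAdd a)

theorem Phi_single (j : Fin 8) (a : ZMod 3) : Phi E hE hc (sng j a) = E j ^ a.val := by
  have h1 := MonoidHom.noncommPiCoprod_mulSingle (hcomm := pw_comm E hE hc) (ϕ := fun j => pw3 (E j) (hE j)) j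
    (Multiplicative.ofAdd a)
  exact h1.trans (pw3_apply (E j) (hE j) a)

theorem mv_eq (v : Fin 8 → ZMod 3) : mv v = sng 0 (v 0) * sng 1 (v 1) * sng 2 (v 2) * sng 3 (v 3) * sng 4 (v 4) *
    sng 5 (v 5) * sng 6 (v 6) * sng 7 (v 7) := by
  funext j
  fin_cases j <;> simp [mv, sng, Pi.mulSingle_apply]

theorem Phi_apply (v : Fin 8 → ZMod 3) : Phi E hE hc (mv v) = E 0 ^ (v 0).val * E 1 ^ (v 1).val * E 2 ^ (v 2).val *
    E 3 ^ (v 3).val * E 4 ^ (v 4).val * E 5 ^ (v 5).val * E 6 ^ (v 6).val * E 7 ^ (v 7).val := by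
  rw [mv_eq]
  simp only [map_mul, Phi_single]

theorem mv_act (M : Fin 8 → Fin 8 → ZMod 3) (v : Fin 8 → ZMod 3) : mv (act M v) =
    mv (M 0) ^ (v 0).val * mv (M 1) ^ (v 1).val * mv (M 2) ^ (v 2).val * mv (M 3) ^ (v 3).val * mv (M 4) ^ (v 4).val *
      mv (M 5) ^ (v 5).val * mv (M 6) ^ (v 6).val * mv (M 7) ^ (v 7).val := by
  funext j
  apply Multiplicative.toAdd.injective
  simp only [mv, act, Pi.mul_apply, Pi.pow_apply, toAdd_mul, toAdd_pow, toAdd_ofAdd, nsmul_eq_mul, ZMod.natCast_zmod_val,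
    Fin.sum_univ_eight]

theorem Phi_conj {s : Q} {M : Fin 8 → Fin 8 → ZMod 3} (hs : ∀ j, s⁻¹ * E j * s = Phi E hE hc (mv (M j)))
    (v : Fin 8 → ZMod 3) : s⁻¹ * Phi E hE hc (mv v) * s = Phi E hE hc (mv (act M v)) := by
  have h1 : ∀ z : Q, s⁻¹ * z * s = MulAut.conj s⁻¹ z := fun z => by simp [MulAut.conj_apply]
  rw [mv_act, Phi_apply, h1]
  simp only [map_mul, map_pow]
  simp only [← h1, hs]

end hom

section grp

variable {G : Type*} [Group G] {y : G} {e : Fin 8 → G}

theorem nf_zero (v : Fin 8 → ZMod 3) (b : ZMod 3) : nf y e v b = nf y e v 0 * y ^ b.val := by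
  unfold nf
  rw [ZMod.val_zero, pow_zero, mul_one]

theorem zpow_val (y3 : y ^ 3 = 1) (k : ℤ) : y ^ k = y ^ ((k : ZMod 3)).val := by
  have h1 : (((k : ZMod 3).val : ℤ) : ZMod 3) = ((k : ℤ) : ZMod 3) := by
    rw [Int.cast_natCast, ZMod.natCast_zmod_val]
  rw [ZMod.intCast_eq_intCast_iff_dvd_sub] at h1
  obtain ⟨m, hm⟩ := h1
  have h2 : k = ((k : ZMod 3).val : ℤ) + 3 * m := by
    have : ((3 : ℕ) : ℤ) = 3 := rfl
    omega
  have h3 : y ^ (3 : ℤ) = 1 := by exact_mod_cast y3
  conv_lhs => rw [h2]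
  rw [zpow_add, zpow_mul, h3, one_zpow, mul_one, zpow_natCast]

/-- an element that commutes with `y` and acts on the generators by a matrix acts on the normal forms by this matrix -/
theorem acts_of (y3 : y ^ 3 = 1) (e3 : ∀ j, e j ^ 3 = 1) (ey : ∀ j, e j * y = y * e j)
    (ee : ∀ i j, ∃ m : ℕ, e i * e j = y ^ m * e j * e i) {s : G} (hsy : s * y = y * s) {M : Fin 8 → Fin 8 → ZMod 3}
    {C : Fin 8 → ZMod 3} (hs : ∀ j, s⁻¹ * e j * s = nf y e (M j) (C j)) (v : Fin 8 → ZMod 3) (b : ZMod 3) :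
    ∃ b', s⁻¹ * nf y e v b * s = nf y e (act M v) b' := by
  classical
  let Γ := Subgroup.centralizer ({y} : Set G)
  have hm : ∀ {g : G}, g * y = y * g → g ∈ Γ := fun hg => Subgroup.mem_centralizer_singleton_iff.2 hg
  let yb : Γ := ⟨y, hm rfl⟩
  let eb : Fin 8 → Γ := fun j => ⟨e j, hm (ey j)⟩
  let sb : Γ := ⟨s, hm hsy⟩
  let Z : Subgroup Γ := Subgroup.zpowers yb
  have hcen : ∀ g : Γ, g * yb = yb * g := fun g => Subtype.ext (Subgroup.mem_centralizer_singleton_iff.1 g.2)
  have hZn : Z.Normal := by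
    constructor
    rintro _ ⟨k, rfl⟩ g
    refine ⟨k, ?_⟩
    have h1 : Commute g (yb ^ k) := (show Commute g yb from hcen g).zpow_right k
    show yb ^ k = g * yb ^ k * g⁻¹
    rw [h1.eq, mul_inv_cancel_right]
  let π : Γ →* Γ ⧸ Z := QuotientGroup.mk' Z
  have hπy : π yb = 1 := (QuotientGroup.eq_one_iff yb).2 (Subgroup.mem_zpowers yb)
  have hE : ∀ j, π (eb j) ^ 3 = 1 := by
    intro j
    rw [← map_pow, show eb j ^ 3 = 1 from Subtype.ext (e3 j), map_one]
  have hc : ∀ i j, π (eb i) * π (eb j) = π (eb j) * π (eb i) := by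
    intro i j
    obtain ⟨m, hm'⟩ := ee i j
    have h1 : eb i * eb j = yb ^ m * eb j * eb i := Subtype.ext hm'
    rw [← map_mul, h1, map_mul, map_mul, map_pow, hπy, one_pow, one_mul]
  have hnf : ∀ v b, ((nf yb eb v b : Γ) : G) = nf y e v b := by
    intro v b
    simp only [nf, Subgroup.coe_mul, Subgroup.coe_pow, eb, yb]
  have hπ : ∀ v b, π (nf yb eb v b) = Phi (fun j => π (eb j)) hE hc (mv v) := by
    intro v b
    rw [Phi_apply]
    simp only [nf, map_mul, map_pow, hπy, one_pow, mul_one]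
  have h1 : ∀ j, (π sb)⁻¹ * π (eb j) * π sb = Phi (fun j => π (eb j)) hE hc (mv (M j)) := by
    intro j
    rw [← hπ (M j) (C j), ← map_inv, ← map_mul, ← map_mul]
    congr 1
    apply Subtype.ext
    rw [hnf]
    exact hs j
  have h2 := Phi_conj (fun j => π (eb j)) hE hc h1 v
  rw [← hπ v b, ← hπ (act M v) 0, ← map_inv, ← map_mul, ← map_mul] at h2
  have h3 : (nf yb eb (act M v) 0)⁻¹ * (sb⁻¹ * nf yb eb v b * sb) ∈ Z := QuotientGroup.eq.1 h2.symm
  obtain ⟨k, hk⟩ := h3
  refine ⟨(k : ZMod 3), ?_⟩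
  have h4 : sb⁻¹ * nf yb eb v b * sb = nf yb eb (act M v) 0 * yb ^ k := by
    have : yb ^ k = (nf yb eb (act M v) 0)⁻¹ * (sb⁻¹ * nf yb eb v b * sb) := hk
    rw [this, mul_inv_cancel_left]
  have h5 := congrArg (Subtype.val) h4
  simp only [Subgroup.coe_mul, Subgroup.coe_inv, Subgroup.coe_zpow, hnf] at h5
  rw [nf_zero (act M v) (k : ZMod 3), ← zpow_val y3]
  exact h5

/-- the triple property is invariant under conjugation by an element commuting with `u` and `y` -/
theorem core_aux (y3 : y ^ 3 = 1) (e3 : ∀ j, e j ^ 3 = 1) (ey : ∀ j, e j * y = y * e j)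
    (ee : ∀ i j, ∃ m : ℕ, e i * e j = y ^ m * e j * e i) (u : G) (a : Fin 4 → G) (A : Fin 4 → Fin 8 → Fin 8 → ZMod 3)
    (C : Fin 4 → Fin 8 → ZMod 3) (hau : ∀ i, a i * u = u * a i) (hay : ∀ i, a i * y = y * a i) (ha1 : ∀ i, a i ≠ 1)
    (ha2 : ∀ i, i ≠ 3 → a i * a i = 1) (hae : ∀ i j, (a i)⁻¹ * e j * a i = nf y e (A i j) (C i j))
    (reps : List (Fin 8 → ZMod 3)) (hrep : ∀ v ∈ reps, ∀ b, ¬ Trip u y (nf y e v b)) :
    ∀ (l : List (Fin 4)) (v : Fin 8 → ZMod 3) (b : ZMod 3),
      ((∃ i, i ≠ 3 ∧ act (A i) (acts A v l) = acts A v l) ∨ acts A v l ∈ reps) →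
      Trip u y (nf y e v b) → Cen u y (nf y e v b)
  | [], v, b, h, ht => by
    rcases h with ⟨i, hi, h⟩ | h
    · -- the involution `a i` commutes with the element
      have h' : act (A i) v = v := h
      obtain ⟨b', hb'⟩ := acts_of y3 e3 ey ee (hay i) (hae i) v b
      rw [h', nf_zero v b, nf_zero v b'] at hb'
      have hyc : Commute y (nf y e v 0) := by
        unfold nf
        have hk : ∀ j m, Commute y (e j ^ m) := fun j m => (show Commute y (e j) from (ey j).symm).pow_right m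
        exact (((((((((hk 0 _).mul_right (hk 1 _)).mul_right (hk 2 _)).mul_right (hk 3 _)).mul_right (hk 4 _)).mul_right
          (hk 5 _)).mul_right (hk 6 _)).mul_right (hk 7 _)).mul_right ((Commute.refl y).pow_right _))
      obtain ⟨x, hx⟩ : ∃ x, x = nf y e v 0 := ⟨_, rfl⟩
      rw [nf_zero v b]
      rw [← hx] at hb' hyc ⊢
      -- `a⁻¹ x a = x y ^ k`
      have ha := hay i
      have hinv : (a i)⁻¹ = a i := inv_eq_of_mul_eq_one_right (ha2 i hi)
      have hay' : Commute (a i) y := ha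
      have e1 : a i * x * a i = x * y ^ ((b'.val : ℤ) - b.val) := by
        rw [hinv] at hb'
        have e2 : a i * (x * y ^ b.val) * a i = a i * x * a i * y ^ b.val := by
          rw [mul_assoc, mul_assoc x, ((hay'.pow_right b.val).symm).eq]
          simp only [mul_assoc]
        rw [e2] at hb'
        rw [zpow_sub, zpow_natCast, zpow_natCast, ← mul_assoc, ← hb', mul_inv_cancel_right]
      set k : ℤ := (b'.val : ℤ) - b.val
      -- twice
      have e3' : y ^ k * y ^ k = 1 := by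
        have e4 : a i * (a i * x * a i) * a i = x := by
          calc a i * (a i * x * a i) * a i = (a i * a i) * x * (a i * a i) := by simp only [mul_assoc]
            _ = x := by rw [ha2 i hi, one_mul, mul_one]
        rw [e1] at e4
        have e5 : a i * (x * y ^ k) * a i = a i * x * a i * y ^ k := by
          rw [mul_assoc, mul_assoc x, ((hay'.zpow_right k).symm).eq]
          simp only [mul_assoc]
        rw [e5, e1, mul_assoc] at e4
        exact mul_eq_left.1 e4
      have e6 : y ^ k = 1 := by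
        have e7 : y ^ (3 * k) = 1 := by
          rw [zpow_mul, show y ^ (3 : ℤ) = 1 by exact_mod_cast y3, one_zpow]
        have e8 : y ^ (3 * k) = y ^ k * (y ^ k * y ^ k) := by
          rw [← zpow_add, ← zpow_add]
          congr 1
          ring
        rw [e8, e3', mul_one] at e7
        exact e7
      rw [e6, mul_one] at e1
      have e9 : a i * x = x * a i := by
        calc a i * x = a i * x * (a i * a i) := by rw [ha2 i hi, mul_one]
          _ = a i * x * a i * a i := by simp only [mul_assoc]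
          _ = x * a i := by rw [e1]
      refine ⟨a i, ha1 i, hau i, hay i, ?_⟩
      have hxa : Commute (a i) x := e9
      exact (hxa.mul_right (hay'.pow_right b.val)).eq
    · exact absurd ht (hrep v h b)
  | i :: l, v, b, h, ht => by
    obtain ⟨b', hb'⟩ := acts_of y3 e3 ey ee (hay i) (hae i) v b
    have hu : (a i)⁻¹ * u * a i = u := by rw [mul_assoc, ← hau i, inv_mul_cancel_left]
    have hy : (a i)⁻¹ * y * a i = y := by rw [mul_assoc, ← hay i, inv_mul_cancel_left]
    have h1 := ht.conj (a i)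
    rw [hu, hy, hb'] at h1
    have h2 := core_aux y3 e3 ey ee u a A C hau hay ha1 ha2 hae reps hrep l (act (A i) v) b' h h1
    apply Cen.conj (k := (a i)⁻¹)
    rw [inv_inv, hu, hy, hb']
    exact h2

end grp

/-- **The abstract core of type II.** -/
theorem core {G : Type} [Group G] {y : G} {e : Fin 8 → G} {t : G} {w : Fin 6 → G} {k : Fin 2 → G} {n : G}
    (h : TB y e t w k n) (hNF : StNF) (u : G) (a : Fin 4 → G) (A : Fin 4 → Fin 8 → Fin 8 → ZMod 3)
    (C : Fin 4 → Fin 8 → ZMod 3) (hau : ∀ i, a i * u = u * a i) (hay : ∀ i, a i * y = y * a i) (ha1 : ∀ i, a i ≠ 1)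
    (ha2 : ∀ i, i ≠ 3 → a i * a i = 1) (hae : ∀ i j, (a i)⁻¹ * e j * a i = nf y e (A i j) (C i j))
    (reps : List (Fin 8 → ZMod 3)) (hrep : ∀ v ∈ reps, ∀ b, ¬ Trip u y (nf y e v b))
    (hfin : ∀ v, ∃ l : List (Fin 4), (∃ i, i ≠ 3 ∧ act (A i) (acts A v l) = acts A v l) ∨ acts A v l ∈ reps) :
    ∀ p ∈ PP y e, Trip u y p → Cen u y p := by
  intro p hp ht
  obtain ⟨v, b, rfl⟩ := ((hNF h).1 p).1 hp
  obtain ⟨l, hl⟩ := hfin v
  exact core_aux h.y3 h.e3 h.ey (fun i j => ⟨_, h.ee i j⟩) u a A C hau hay ha1 ha2 hae reps hrep l v b hl ht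

end Cfsg.Agent.H921.U33
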