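import Cfsg.Agent.H921.U33.TypeTwo
import Cfsg.Agent.H913.U33.Ne

/-!
# S5525, type II: assembly and tests (helper921)

* `typeII` : the box II of `H524/U33/Glue` from `core`, in the frame `c P c⁻¹`;
* `nfw` : the word of a normal form, `g_nfw`;
* `not_trip_rel` (and `not_trip_qx`, `not_trip_yq`, `not_trip_xw`) : a kernel test `ne` refutes a triple.
-/

set_option autoImplicit false

namespace Cfsg.Agent.H921.U33

open Cfsg.Agent.H819.U33 Cfsg.Agent.H863.U33 Cfsg.Agent.H524.U33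
open Cfsg.Agent.BabyM.Conc Cfsg.Agent.BabyM.TransInv

/-- **Box II.** -/
theorem typeII {y1 c : G} {e : Fin 8 → G} {t : G} {w : Fin 6 → G} {k : Fin 2 → G} {n : G}
    (hc : c⁻¹ * g wy * c = y1) (h : TB y1 e t w k n) (hNF : StNF) {u : G} (hu : c⁻¹ * g wu * c = u)
    (a : Fin 4 → G) (A : Fin 4 → Fin 8 → Fin 8 → ZMod 3)
    (C : Fin 4 → Fin 8 → ZMod 3) (hau : ∀ i, a i * u = u * a i) (hay : ∀ i, a i * y1 = y1 * a i)
    (ha1 : ∀ i, a i ≠ 1) (ha2 : ∀ i, i ≠ 3 → a i * a i = 1)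
    (hae : ∀ i j, (a i)⁻¹ * e j * a i = nf y1 e (A i j) (C i j))
    (reps : List (Fin 8 → ZMod 3)) (hrep : ∀ v ∈ reps, ∀ b, ¬ Trip u y1 (nf y1 e v b))
    (hfin : ∀ v, ∃ l : List (Fin 4), (∃ i, i ≠ 3 ∧ act (A i) (acts A v l) = acts A v l) ∨ acts A v l ∈ reps) :
    ∀ p ∈ PP y1 e, Trip (g wu) (g wy) (c * p * c⁻¹) → Cen (g wu) (g wy) (c * p * c⁻¹) := by
  intro p hp ht
  have h1 := ht.conj c
  have h2 : c⁻¹ * (c * p * c⁻¹) * c = p := by group
  rw [hc, hu, h2] at h1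
  apply Cen.conj (k := c⁻¹)
  rw [inv_inv, hc, hu, h2]
  exact core h hNF u a A C hau hay ha1 ha2 hae reps hrep hfin p hp h1

/-- the word of a normal form -/
def nfw (wy1 : List Ltr) (we : Fin 8 → List Ltr) (v : Fin 8 → ZMod 3) (b : ZMod 3) : List Ltr :=
  pw (we 0) (v 0).val ++ pw (we 1) (v 1).val ++ pw (we 2) (v 2).val ++ pw (we 3) (v 3).val ++ pw (we 4) (v 4).val ++
    pw (we 5) (v 5).val ++ pw (we 6) (v 6).val ++ pw (we 7) (v 7).val ++ pw wy1 b.val

theorem g_nfw (wy1 : List Ltr) (we : Fin 8 → List Ltr) (v : Fin 8 → ZMod 3) (b : ZMod 3) :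
    g (nfw wy1 we v b) = nf (g wy1) (fun j => g (we j)) v b := by
  simp only [nfw, nf, g_append, g_pw]

theorem g_ne_one {v : List Ltr} (h : ne v [] = true) : g v ≠ 1 := by
  intro h1
  exact ne_of h (by rw [h1, g_nil])

/-- the relation `rel` fails -/
theorem not_trip_rel {U X : List Ltr} {y : G}
    (h : ne (X ++ U ++ X ++ winv U ++ winv X ++ winv U ++ X ++ U ++ X) (winv U ++ winv U) = true) :
    ¬ Trip (g U) y (g X) := by
  intro ht
  apply ne_of h
  have h1 := ht.rel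
  rw [_root_.pow_two] at h1
  simp only [g_append, g_winv]
  exact h1

/-- the relation `rel` fails, the sides balanced: `X U X U⁻¹ = U⁻² X⁻¹ U⁻¹ X⁻¹ U X` -/
theorem not_trip_rel' {U X : List Ltr} {y : G}
    (h : ne (X ++ U ++ X ++ winv U) (winv U ++ winv U ++ winv X ++ winv U ++ winv X ++ U ++ X) = true) :
    ¬ Trip (g U) y (g X) := by
  intro ht
  apply ne_of h
  have h1 := ht.rel
  rw [_root_.pow_two] at h1
  simp only [g_append, g_winv]
  have h2 : g X * g U * g X * (g U)⁻¹ = (g X * g U * g X * (g U)⁻¹ * (g X)⁻¹ * (g U)⁻¹ * g X * g U * g X) *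
      (g X)⁻¹ * (g U)⁻¹ * (g X)⁻¹ * g U * g X := by group
  rw [h2, h1]

/-- the relation `qx` fails -/
theorem not_trip_qx {U X : List Ltr} {y : G}
    (h : ne (winv U ++ winv X ++ winv U ++ winv U ++ winv U ++ winv X ++ winv U ++ X)
      (X ++ winv U ++ winv X ++ winv U ++ winv U ++ winv U ++ winv X ++ winv U) = true) :
    ¬ Trip (g U) y (g X) := by
  intro ht
  apply ne_of h
  have h1 := ht.qx
  simp only [g_append, g_winv]
  rw [pow_succ, _root_.pow_two] at h1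
  simp only [mul_assoc] at h1 ⊢
  exact h1

/-- the relation `yq` fails: `y q = q y x` -/
theorem not_trip_yq {U X Y : List Ltr}
    (h : ne (Y ++ winv U ++ winv X ++ winv U ++ winv U ++ winv U ++ winv X ++ winv U)
      (winv U ++ winv X ++ winv U ++ winv U ++ winv U ++ winv X ++ winv U ++ Y ++ X) = true) :
    ¬ Trip (g U) (g Y) (g X) := by
  intro ht
  apply ne_of h
  have h1 := ht.yq
  simp only [g_append, g_winv]
  rw [pow_succ, _root_.pow_two] at h1
  have h2 := congrArg (fun z => ((g U)⁻¹ * (g X)⁻¹ * ((g U)⁻¹ * (g U)⁻¹ * (g U)⁻¹) * (g X)⁻¹ * (g U)⁻¹) * z) h1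
  simp only [mul_assoc, mul_inv_cancel_left, inv_mul_cancel_left, mul_inv_rev, inv_inv] at h2 ⊢
  exact h2

/-- the relation `xw` fails: `x w = w x⁻¹`, `w = u x u⁻¹ x⁻¹ u` -/
theorem not_trip_xw {U X : List Ltr} {y : G}
    (h : ne (X ++ U ++ X ++ winv U ++ winv X ++ U) (U ++ X ++ winv U ++ winv X ++ U ++ winv X) = true) :
    ¬ Trip (g U) y (g X) := by
  intro ht
  apply ne_of h
  have h1 := ht.xw
  simp only [g_append, g_winv]
  have h2 := congrArg (fun z => (g U * g X * (g U)⁻¹ * (g X)⁻¹ * g U) * z) h1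
  simp only [mul_assoc, mul_inv_cancel_left, inv_mul_cancel_left, mul_inv_rev, inv_inv] at h2 ⊢
  exact h2

end Cfsg.Agent.H921.U33
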