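import Cfsg.Agent.H921.U33.TypeTwoAsm
import Cfsg.Agent.H863.U33.Inst
import Cfsg.Agent.H649.U33.NF
import Cfsg.Agent.H827.U33.GBase

/-!
# S5525, box II from the kernel checks (helper921)

`boxII_of` : the hypotheses are the kernel checks of helper827 (`GAct*`, `GRel*`) and helper109's finite check (`FinG`).
-/

set_option autoImplicit false

namespace Cfsg.Agent.H921.U33

open Cfsg.Agent.H819.U33 Cfsg.Agent.H524.U33 Cfsg.Agent.H827.U33
open Cfsg.Agent.BabyM.Conc Cfsg.Agent.BabyM.TransInv Cfsg.Agent.BM.StageW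
open Cfsg.Agent.H863.U33 (PP nf eG tb we wy1 of_chk)

theorem link_y : (g wc)⁻¹ * g wy * g wc = g wy1 := by
  have h := eq_of c_y
  rw [g_append, g_append] at h
  rw [mul_assoc, h, inv_mul_cancel_left]

theorem link_u : (g wc)⁻¹ * g wu * g wc = g wu1 := by
  have h := eq_of c_u
  rw [g_append, g_append] at h
  rw [mul_assoc, h, inv_mul_cancel_left]

theorem not_trip_of_tst {v : Fin 8 → ZMod 3} {b : ZMod 3} (h : tst v b = true) (y : G) :
    ¬ Trip (g wu1) y (nf (g wy1) eG v b) := by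
  rw [← Cfsg.Agent.H863.U33.g_nfw]
  exact not_trip_rel' h

theorem tst_of_tstL {l : List (Fin 8 → ZMod 3)} (h : tstL l = true) {v : Fin 8 → ZMod 3} (hv : v ∈ l) (b : ZMod 3) :
    tst v b = true := by
  have h1 := List.all_eq_true.1 h v hv
  rw [Bool.and_eq_true, Bool.and_eq_true] at h1
  fin_cases b
  · exact h1.1
  · exact h1.2.1
  · exact h1.2.2

theorem mem_repL {v : Fin 8 → ZMod 3} (h : v ∈ repL) : v ∈ rep0 ∨ v ∈ rep1 ∨ v ∈ rep2 ∨ v ∈ rep3 ∨ v ∈ rep4 ∨ v ∈ rep5 := by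
  unfold repL at h
  simp only [List.mem_append] at h
  tauto

/-- **Box II from the checks.** -/
theorem boxII_of (hact : ∀ (i : Fin 4) (j : Fin 8), chk (we j ++ wa i) (wa i ++ Cfsg.Agent.H863.U33.nfw (AG i j) (CG i j)) = true)
    (hcu : ∀ i : Fin 4, g (wa i) * g wu1 = g wu1 * g (wa i)) (hcy : ∀ i : Fin 4, g (wa i) * g wy1 = g wy1 * g (wa i))
    (hn : ∀ i : Fin 4, g (wa i) ≠ 1) (hsq : ∀ i : Fin 4, i ≠ 3 → g (wa i) * g (wa i) = 1)
    (r0 : tstL rep0 = true) (r1 : tstL rep1 = true) (r2 : tstL rep2 = true) (r3 : tstL rep3 = true)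
    (r4 : tstL rep4 = true) (r5 : tstL rep5 = true)
    (hfin : ∀ v, ∃ l : List (Fin 4), (∃ i, i ≠ 3 ∧ act (AG i) (acts AG v l) = acts AG v l) ∨ acts AG v l ∈ repL) :
    ∀ p ∈ PP (g wy1) eG, Trip (g wu) (g wy) (g wc * p * (g wc)⁻¹) → Cen (g wu) (g wy) (g wc * p * (g wc)⁻¹) := by
  refine typeII link_y tb Cfsg.Agent.H649.U33.stNF link_u (fun i => g (wa i)) AG CG hcu hcy hn hsq ?_ repL ?_ hfin
  · intro i j
    exact of_chk (hact i) j
  · intro v hv b
    apply not_trip_of_tst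
    rcases mem_repL hv with h | h | h | h | h | h
    · exact tst_of_tstL r0 h b
    · exact tst_of_tstL r1 h b
    · exact tst_of_tstL r2 h b
    · exact tst_of_tstL r3 h b
    · exact tst_of_tstL r4 h b
    · exact tst_of_tstL r5 h b

end Cfsg.Agent.H921.U33
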